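import Cfsg.Agent.DefectOne.Bridge
import Cfsg.Agent.DefectOne.FTCore
import Cfsg.Agent.Blocks.Glauberman
import Cfsg.Agent.Transfer.AbelianSylow
import Cfsg.Agent.Clifford.Ito
import Cfsg.Agent.CharBasics.Burnside
import Cfsg.Agent.CharBasics.ItoConverse
import Cfsg.Agent.Clifford.LinChar
import Cfsg.Agent.Clifford.InertiaAbelian

/-!
Groups whose nonlinear character degrees are primes are soluble.
-/

set_option autoImplicit false
set_option linter.unusedSectionVars false
set_option linter.style.haveILetI false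

namespace CfsgLib.PrimeDegrees

open Cfsg CfsgLib.CharBasics CfsgLib.DefectOne

universe u

variable {G : Type u} [Group G] [Finite G]

/-- Every nonlinear degree is a prime. -/
def PrimeDeg (G : Type u) [Group G] : Prop :=
  ∀ χ : IrrCharacter G, charDegree (χ : G → ℂ) ≠ 1 → (charDegree (χ : G → ℂ)).Prime

section Simple

variable [IsSimpleGroup G]

theorem eq_one_of_linear (hna : ¬ IsMulCommutative G) (χ : IrrCharacter G) (h : charDegree (χ : G → ℂ) = 1) :
    (χ : G → ℂ) = fun _ => 1 := by
  funext g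
  have hc : commutator G = ⊤ := ((inferInstance : (commutator G).Normal).eq_bot_or_eq_top).resolve_left fun hb =>
    hna ⟨⟨fun a b => by
      have h1 : a * b * a⁻¹ * b⁻¹ ∈ commutator G := by
        rw [commutator_def]
        exact Subgroup.commutator_mem_commutator (Subgroup.mem_top a) (Subgroup.mem_top b)
      rw [hb, Subgroup.mem_bot] at h1
      have h2 := congrArg (fun t => t * b * a) h1
      simpa [mul_assoc] using h2⟩⟩
  rw [GaloisDegree.apply_commutator_of_linear χ.2 h (hc ▸ Subgroup.mem_top g),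
    apply_one (isCharacter_of_irr χ.2), h, Nat.cast_one]

/-- A nonlinear character takes no value of absolute value its degree off the identity. -/
theorem eq_one_of_norm (hna : ¬ IsMulCommutative G) (χ : IrrCharacter G) (h1 : charDegree (χ : G → ℂ) ≠ 1) {g : G}
    (hg : ‖(χ : G → ℂ) g‖ = (charDegree (χ : G → ℂ) : ℝ)) : g = 1 := by
  classical
  have hc := isCharacter_of_irr χ.2
  rcases (charKer_normal hc).eq_bot_or_eq_top with hb | ht
  · have hz : g ∈ Subgroup.center G := Subgroup.mem_center_iff.2 fun x => by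
      have hm := (mem_charKer hc (x * g * x⁻¹ * g⁻¹)).2 (commutator_mem_charKer χ.2 hg x)
      rw [hb, Subgroup.mem_bot] at hm
      have h2 := congrArg (fun t => t * g * x) hm
      simpa [mul_assoc] using h2
    rcases (inferInstance : (Subgroup.center G).Normal).eq_bot_or_eq_top with hb' | ht'
    · exact Subgroup.mem_bot.1 (hb' ▸ hz)
    · exact absurd ⟨⟨fun a b => Subgroup.mem_center_iff.1 (ht' ▸ Subgroup.mem_top b) a⟩⟩ hna
  · exfalso
    refine h1 ?_
    have hall : ∀ x y : G, (χ : G → ℂ) (x * y * x⁻¹ * y⁻¹) = (χ : G → ℂ) 1 := fun x y =>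
      (mem_charKer hc _).1 (ht ▸ Subgroup.mem_top _)
    have := Clifford.apply_one_eq_one_of_commutators χ.2 hall
    rw [apply_one hc, Nat.cast_eq_one] at this
    exact this

theorem degree_ne_two (hna : ¬ IsMulCommutative G) (χ : IrrCharacter G) : charDegree (χ : G → ℂ) ≠ 2 := by
  classical
  haveI := Fintype.ofFinite G
  intro h2
  haveI : Fact (Nat.Prime 2) := ⟨Nat.prime_two⟩
  obtain ⟨t, ht⟩ := exists_prime_orderOf_dvd_card' (G := G) 2 (h2 ▸ degree_dvd χ)
  obtain ⟨f, hf⟩ := Clifford.exists_detHom χ.2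
  have hdet1 : Cfsg.detChar (χ : G → ℂ) t = 1 := by
    have := congrFun (eq_one_of_linear hna ⟨fun g => f g, Clifford.isIrrCharacter_of_hom f⟩ (by
      simp [charDegree])) t
    rw [hf]; exact this
  obtain ⟨n, ρ, hρ, hρχ⟩ := χ.2
  have hn : n = 2 := by
    have h1 : (χ : G → ℂ) 1 = (n : ℂ) := by rw [← hρχ, Representation.char_one]; simp
    rw [apply_one (isCharacter_of_irr χ.2), h2, Nat.cast_inj] at h1
    exact h1.symm
  subst hn
  rw [Clifford.detChar_eq χ.2 ρ hρχ] at hdet1
  set A := LinearMap.toMatrix (Pi.basisFun ℂ (Fin 2)) (Pi.basisFun ℂ (Fin 2)) (ρ t) with hA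
  have hdet : A.det = 1 := by rw [hA, LinearMap.det_toMatrix]; exact hdet1
  have hsq : A * A = 1 := by
    rw [hA, ← LinearMap.toMatrix_mul, ← map_mul, show t * t = 1 by rw [← sq, ← ht]; exact pow_orderOf_eq_one t,
      map_one, LinearMap.toMatrix_one]
  have htr : (χ : G → ℂ) t = A 0 0 + A 1 1 := by
    rw [← hρχ, Representation.character, LinearMap.trace_eq_matrix_trace ℂ (Pi.basisFun ℂ (Fin 2)),
      Matrix.trace_fin_two]
  have e00 := congrFun (congrFun hsq 0) 0
  have e11 := congrFun (congrFun hsq 1) 1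
  simp only [Matrix.mul_apply, Fin.sum_univ_two, Matrix.one_apply_eq] at e00 e11
  rw [Matrix.det_fin_two] at hdet
  have e : (A 0 0 + A 1 1) * (A 0 0 + A 1 1) = 4 := by linear_combination e00 + e11 + 2 * hdet
  have hn : ‖(χ : G → ℂ) t‖ = 2 := by
    rw [htr]
    have h4 := congrArg norm e
    rw [norm_mul] at h4
    norm_num at h4
    nlinarith [norm_nonneg (A 0 0 + A 1 1)]
  have := eq_one_of_norm hna χ (by rw [h2]; omega) (g := t) (by rw [hn, h2]; norm_num)
  rw [this, orderOf_one] at ht
  omega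

/-- The largest prime degree is the order of a Sylow subgroup. -/
theorem card_sylow_eq (hna : ¬ IsMulCommutative G) {p : ℕ} [hp : Fact p.Prime] (χ : IrrCharacter G)
    (hχ : charDegree (χ : G → ℂ) = p) (P : Sylow p G) : Nat.card P = p := by
  classical
  haveI := Fintype.ofFinite G
  have hne : charDegree (χ : G → ℂ) ≠ 1 := by rw [hχ]; exact hp.out.ne_one
  have hpG : p ∣ Nat.card G := hχ ▸ degree_dvd χ
  obtain ⟨k, hk⟩ := P.isPGroup'.exists_card_eq
  haveI := Fintype.ofFinite (P : Subgroup G)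
  obtain ⟨r, f, hf, hdec⟩ := exists_decomp (isCharacter_restrict (isCharacter_of_irr χ.2) (P : Subgroup G))
  -- all constituents on `P` are linear
  have hlin : ∀ i, f i 1 = 1 := by
    intro i
    by_contra hi
    have hd : charDegree (f i) ≠ 1 := fun h => hi (by rw [apply_one (isCharacter_of_irr (hf i)), h, Nat.cast_one])
    obtain ⟨j, -, hj⟩ := (Nat.dvd_prime_pow hp.out).1 (hk ▸ degree_dvd (⟨f i, hf i⟩ : IrrCharacter (P : Subgroup G)))
    change charDegree (f i) = p ^ j at hj
    have hj0 : j ≠ 0 := fun h => hd (by rw [hj, h, pow_zero])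
    have h1 := congrFun hdec 1
    rw [Finset.sum_apply, Finset.sum_congr rfl (fun l _ => apply_one (isCharacter_of_irr (hf l))), ← Nat.cast_sum,
      Subgroup.coe_one, apply_one (isCharacter_of_irr χ.2), hχ, Nat.cast_inj,
      ← Finset.add_sum_erase _ _ (Finset.mem_univ i), hj] at h1
    have hge : p ≤ p ^ j := Nat.le_self_pow hj0 p
    have hz : ∀ l, l ≠ i → False := fun l hl => by
      have h2 := Finset.single_le_sum (f := fun l => charDegree (f l)) (fun _ _ => Nat.zero_le _)
        (Finset.mem_erase.2 ⟨hl, Finset.mem_univ l⟩)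
      have := charDegree_pos (hf l)
      omega
    have hirr : ∀ x : (P : Subgroup G), (χ : G → ℂ) x = f i x := fun x => by
      have := congrFun hdec x
      rw [Finset.sum_apply, Finset.sum_eq_single i (fun l _ hl => (hz l hl).elim) (by simp)] at this
      exact this
    -- a central element of `P` would be scalar
    haveI : Nontrivial (P : Subgroup G) := Finite.one_lt_card_iff_nontrivial.1 (by
      rw [hk]
      exact Nat.one_lt_pow (fun h => P.ne_bot_of_dvd_card hpG (Subgroup.card_eq_one.1 (by rw [hk, h, pow_zero])))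
        hp.out.one_lt)
    haveI := P.isPGroup'.center_nontrivial
    obtain ⟨z, hz1⟩ := exists_ne (1 : Subgroup.center (P : Subgroup G))
    have hn := GaloisDegree.center_normSq (hf i) z.2
    rw [← hirr, ← hirr, Subgroup.coe_one, Complex.mul_conj', apply_one (isCharacter_of_irr χ.2)] at hn
    have hn' : ‖(χ : G → ℂ) ((z : (P : Subgroup G)) : G)‖ = (charDegree (χ : G → ℂ) : ℝ) := by
      have h2 : ‖(χ : G → ℂ) ((z : (P : Subgroup G)) : G)‖ ^ 2 = (charDegree (χ : G → ℂ) : ℝ) ^ 2 := by
        rw [sq (charDegree (χ : G → ℂ) : ℝ)]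
        exact_mod_cast hn
      exact (pow_left_inj₀ (norm_nonneg _) (Nat.cast_nonneg _) two_ne_zero).1 h2
    exact hz1 (Subtype.ext (Subtype.ext (eq_one_of_norm hna χ hne hn')))
  have hcomm : ∀ a b : (P : Subgroup G), a * b = b * a := by
    intro a b
    have h1 : (χ : G → ℂ) ((a * b * a⁻¹ * b⁻¹ : (P : Subgroup G)) : G) = (χ : G → ℂ) 1 := by
      rw [show (χ : G → ℂ) ((a * b * a⁻¹ * b⁻¹ : (P : Subgroup G)) : G) = _ from congrFun hdec _,
        show (χ : G → ℂ) 1 = _ from congrFun hdec 1, Finset.sum_apply, Finset.sum_apply]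
      refine Finset.sum_congr rfl fun i _ => ?_
      obtain ⟨μ, hμ⟩ := Clifford.exists_hom_of_linear (isCharacter_of_irr (hf i)) (hlin i)
      rw [hμ]
      simp only [map_mul, map_one]
      have e1 : μ a * μ a⁻¹ = 1 := by rw [← map_mul, mul_inv_cancel, map_one]
      have e2 : μ b * μ b⁻¹ = 1 := by rw [← map_mul, mul_inv_cancel, map_one]
      linear_combination μ b * μ b⁻¹ * e1 + e2
    have h2 := eq_one_of_norm hna χ hne (g := ((a * b * a⁻¹ * b⁻¹ : (P : Subgroup G)) : G))
      (by rw [h1, apply_one (isCharacter_of_irr χ.2)]; simp)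
    have h3 : a * b * a⁻¹ * b⁻¹ = 1 := Subtype.ext h2
    have h4 := congrArg (fun t => t * b * a) h3
    simpa [mul_assoc] using h4
  -- so the character vanishes off the identity on `P`
  have hvan : ∀ x : (P : Subgroup G), x ≠ 1 → (χ : G → ℂ) x = 0 := by
    intro x hx
    by_contra hne'
    refine hx (Subtype.ext (eq_one_of_norm hna χ hne (exists_norm_eq_degree χ (x : G) ?_ hne')))
    rw [hχ]
    refine (hp.out.coprime_iff_not_dvd.2 fun hd => ?_).symm
    exact P.not_dvd_index (hd.trans (Subgroup.index_dvd_of_le fun y hy =>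
      Subgroup.mem_centralizer_singleton_iff.2 (congrArg Subtype.val (hcomm ⟨y, hy⟩ x))))
  have hd : Nat.card P ∣ p := by
    obtain ⟨m, hm⟩ := classInner_characters_nat
      (isCharacter_restrict (isCharacter_of_irr χ.2) (P : Subgroup G)) (isCharacter_of_irr isIrrCharacter_one)
    change classInner (fun x : (P : Subgroup G) => (χ : G → ℂ) x) (fun _ => 1) = (m : ℂ) at hm
    rw [classInner_eq, Finset.sum_eq_single 1 (fun x _ hx => by rw [hvan x hx, zero_mul]) (by simp),
      Subgroup.coe_one, apply_one (isCharacter_of_irr χ.2), hχ, map_one, mul_one] at hm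
    refine ⟨m, ?_⟩
    have h1 : (p : ℂ) = (Nat.card P : ℂ) * (m : ℂ) := by
      rw [← hm, mul_inv_cancel_left₀ (Nat.cast_ne_zero.2 Nat.card_pos.ne')]
    exact_mod_cast h1
  rcases (Nat.dvd_prime hp.out).1 hd with h | h
  · exact absurd (Subgroup.card_eq_one.1 h) (P.ne_bot_of_dvd_card hpG)
  · exact h

theorem false_of_simple (hna : ¬ IsMulCommutative G) (h : PrimeDeg G) : False := by
  classical
  haveI := Fintype.ofFinite G
  haveI := finite_irrCharacter (G := G)
  haveI := Fintype.ofFinite (IrrCharacter G)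
  have hex : ∃ χ : IrrCharacter G, charDegree (χ : G → ℂ) ≠ 1 := by
    by_contra hc
    push Not at hc
    exact hna (ItoConverse.isMulCommutative_of_all_linear hc)
  obtain ⟨χ₁, hχ₁⟩ := hex
  haveI : Nonempty (IrrCharacter G) := ⟨oneChar⟩
  obtain ⟨χ, hmax⟩ := Finite.exists_max (fun χ : IrrCharacter G => charDegree (χ : G → ℂ))
  have hne : charDegree (χ : G → ℂ) ≠ 1 := fun h1 => hχ₁ (by
    have := hmax χ₁
    have := charDegree_pos χ₁.2
    omega)
  set p := charDegree (χ : G → ℂ) with hpdef
  haveI hp : Fact p.Prime := ⟨h χ hne⟩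
  have hodd : p ≠ 2 := degree_ne_two hna χ
  obtain ⟨P⟩ : Nonempty (Sylow p G) := inferInstance
  have hP := card_sylow_eq hna χ rfl P
  obtain ⟨D, hD⟩ := exists_data P hP
  obtain ⟨M, hM⟩ := Blocks.exists_modular hp.out
  obtain ⟨F⟩ := D.exists_family hM D.one
  -- the normaliser does not centralise
  have he : 2 ≤ Nat.card (D.U D.one) := by
    rw [D.card_U_one]
    by_contra hlt
    have h1 : D.V = ⊤ := Subgroup.index_eq_one.1 (by
      have := Subgroup.index_ne_zero_of_finite (H := D.V)
      omega)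
    have hN : Subgroup.normalizer ((P : Subgroup G) : Set G) ≤ Subgroup.centralizer ((P : Subgroup G) : Set G) := by
      intro g hg
      rw [← hD] at hg ⊢
      obtain ⟨a, ha, k, hk, rfl⟩ := D.hN g ((normalizer_iff_zpowers D.x g).1 hg)
      have hkx : Commute k D.x := by
        have := D.mem_V.1 (h1 ▸ Subgroup.mem_top (⟨k, hk⟩ : D.H))
        exact this
      refine Subgroup.mem_centralizer_iff.2 fun y hy => ?_
      obtain ⟨i, rfl⟩ := Subgroup.mem_zpowers_iff.1 hy
      obtain ⟨j, rfl⟩ := Subgroup.mem_zpowers_iff.1 ha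
      exact ((Commute.zpow_zpow_self D.x i j).mul_right (hkx.symm.zpow_left i)).eq
    have hb : Cfsg.HasNormalPComplement p G :=
      CfsgLib.Transfer.burnside_normal_complement P hN
    have hres := CfsgLib.Transfer.hasNormalPComplement_iff.1 hb
    have hn : (Cfsg.pResidual p G).Normal := CfsgLib.Transfer.pResidual_normal
    rcases hn.eq_bot_or_eq_top with hb' | ht
    · have hG : IsPGroup p G := (CfsgLib.Transfer.isPGroup_quotient_pResidual (p := p) (G := G)).of_injective
        (QuotientGroup.mk' _) (by rw [← MonoidHom.ker_eq_bot_iff, QuotientGroup.ker_mk', hb'])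
      haveI := hG.isNilpotent
      haveI : Nontrivial G := IsSimpleGroup.toNontrivial
      haveI := hG.center_nontrivial
      rcases (inferInstance : (Subgroup.center G).Normal).eq_bot_or_eq_top with hb2 | ht2
      · exact (Subgroup.nontrivial_iff_ne_bot _).1 inferInstance hb2
      · exact hna ⟨⟨fun a b => Subgroup.mem_center_iff.1 (ht2 ▸ Subgroup.mem_top b) a⟩⟩
    · rw [ht, Subgroup.card_top] at hres
      exact hres (D.dvd_natCard_G)
  obtain ⟨ψ, hψ, hψ1⟩ : ∃ ψ ∈ D.rest F, ψ ≠ oneChar := by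
    have h2 : 1 < Nat.card (D.rest F) := by rw [D.card_rest hM F]; omega
    rw [Nat.card_coe_set_eq] at h2
    obtain ⟨a, ha, hne⟩ := Set.exists_ne_of_one_lt_ncard h2 (oneChar : IrrCharacter G)
    exact ⟨a, ha, hne⟩
  have hdeg := D.deg_blk hM hψ.1
  have hndvd := D.not_dvd_deg_blk hM hψ.1
  rw [D.S_rest F hψ, D.odeg_one, Nat.cast_one, mul_one] at hdeg
  set q := charDegree (ψ : G → ℂ) with hq
  have hq1 : q ≠ 1 := fun h1 => hψ1 (Subtype.ext ((eq_one_of_linear hna ψ h1).trans rfl))
  have hqp : q.Prime := h ψ hq1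
  have hqle : q ≤ p := hmax ψ
  have hq2 : q ≠ 2 := degree_ne_two hna ψ
  have hne_p : q ≠ p := fun hh => hndvd (hh ▸ dvd_refl p)
  have hqo := hqp.odd_of_ne_two hq2
  have hpo := hp.out.odd_of_ne_two hodd
  have h3 := hqp.two_le
  have hd : (p : ℤ) ∣ (q : ℤ) + D.d ψ 1 D.one := by
    have h5 : (p : ℤ) ∣ (p : ℤ) * D.d ψ 1 D.one := dvd_mul_right _ _
    have := dvd_add hdeg h5
    rwa [show (q : ℤ) + D.d ψ 1 D.one = ((q : ℤ) - ((p : ℤ) - 1) * D.d ψ 1 D.one) + (p : ℤ) * D.d ψ 1 D.one by ring]
  obtain ⟨c, hc⟩ := hd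
  rcases D.rest_d hM F hψ with hd1 | hd1 <;> rw [hd1] at hc
  · obtain ⟨a, ha⟩ := hqo
    obtain ⟨b, hb⟩ := hpo
    have hc1 : 0 < c := by nlinarith
    have hc2 : c < 2 := by nlinarith
    have : c = 1 := by omega
    subst this
    omega
  · have hc1 : 0 < c := by nlinarith
    have hc2 : c < 1 := by nlinarith
    omega

end Simple

theorem isSolvable_of_primeDeg : ∀ (G : Type u) [Group G] [Finite G], PrimeDeg G → Group.IsSolvable G := by
  suffices main : ∀ (n : ℕ) (G : Type u) [Group G] [Finite G], Nat.card G = n → PrimeDeg G → Group.IsSolvable G from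
    fun G _ _ => main _ G rfl
  intro n
  induction n using Nat.strong_induction_on with
  | _ n ih =>
  intro G _ _ hn h
  classical
  by_cases hc : IsMulCommutative G
  · exact Group.isSolvable_of_comm fun a b => hc.is_comm.comm a b
  by_cases hs : ∃ N : Subgroup G, N.Normal ∧ N ≠ ⊥ ∧ N ≠ ⊤
  · obtain ⟨N, hN, hN0, hN1⟩ := hs
    have hsub : PrimeDeg N := fun θ hθ => by
      obtain ⟨χ, hχ⟩ := ItoConverse.degree_dvd_over N θ
      by_cases h1 : charDegree (χ : G → ℂ) = 1
      · rw [h1] at hχ; exact absurd (Nat.dvd_one.1 hχ) hθ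
      · rcases (Nat.dvd_prime (h χ h1)).1 hχ with h2 | h2
        · exact absurd h2 hθ
        · rw [h2]; exact h χ h1
    have hquot : PrimeDeg (G ⧸ N) := fun ψ hψ => by
      have h' := h ⟨fun x => (ψ : G ⧸ N → ℂ) (QuotientGroup.mk' N x),
        Clifford.isIrrCharacter_comp ψ.2 _ (QuotientGroup.mk'_surjective N)⟩
      have e : charDegree (fun x => (ψ : G ⧸ N → ℂ) (QuotientGroup.mk' N x)) = charDegree (ψ : G ⧸ N → ℂ) := by
        simp [charDegree]
      rw [e] at h'
      exact h' hψ
    have hcard := Subgroup.card_eq_card_quotient_mul_card_subgroup N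
    have h1 : 1 < Nat.card N := (Subgroup.one_lt_card_iff_ne_bot N).2 hN0
    have h2 : 1 < Nat.card (G ⧸ N) := by
      rw [← Subgroup.index_eq_card]
      exact Subgroup.one_lt_index_of_ne_top hN1
    haveI := ih (Nat.card N) (by nlinarith) N rfl hsub
    haveI := ih (Nat.card (G ⧸ N)) (by nlinarith) (G ⧸ N) rfl hquot
    exact Group.isSolvable_of_ker_le_range N.subtype (QuotientGroup.mk' N) (by simp)
  · push Not at hs
    haveI : Nontrivial G := by
      by_contra hh
      rw [not_nontrivial_iff_subsingleton] at hh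
      exact hc ⟨⟨fun a b => Subsingleton.elim _ _⟩⟩
    haveI : IsSimpleGroup G := ⟨fun H hH => or_iff_not_imp_left.2 (hs H hH)⟩
    exact (false_of_simple hc h).elim

end CfsgLib.PrimeDegrees
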