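import Cfsg.Agent.PrimeDegrees.Simple
import Cfsg.Prelude.Def_DegreeGraph
import Cfsg.Agent.DegreeOneP.SquareIndex
import Cfsg.Agent.Clifford.CoprimeDegree
import Cfsg.Agent.Clifford.Gallagher

/-!
Prime nonlinear degrees: at most three degrees.
-/

set_option autoImplicit false
set_option linter.unusedSectionVars false
set_option linter.style.haveILetI false

namespace CfsgLib.PrimeDegrees

open Cfsg CfsgLib.CharBasics CfsgLib.DegreeOneP
open scoped IsMulCommutative commutatorElement

universe u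

/-- A just nonabelian group: degree prime `p` occurs and the order is `p` times a prime power. -/
theorem just_nonabelian {Q : Type u} [Group Q] [Finite Q] (hna : ¬ IsMulCommutative Q) (h : PrimeDeg Q)
    (hmin : ∀ M : Subgroup Q, M.Normal → M ≠ ⊥ → commutator Q ≤ M) :
    ∃ p q k : ℕ, p.Prime ∧ q.Prime ∧ Nat.card Q ∣ p * q ^ k ∧
      ∃ β : IrrCharacter Q, charDegree (β : Q → ℂ) = p := by
  classical
  haveI := isSolvable_of_primeDeg Q h
  obtain ⟨β, hβ⟩ : ∃ β : IrrCharacter Q, charDegree (β : Q → ℂ) ≠ 1 := by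
    by_contra hc
    push Not at hc
    exact hna (ItoConverse.isMulCommutative_of_all_linear hc)
  set M := commutator Q with hM
  have hM0 : M ≠ ⊥ := fun hb => hna ⟨⟨fun a b => by
    have h1 : a * b * a⁻¹ * b⁻¹ ∈ M := by
      rw [hM, commutator_def]
      exact Subgroup.commutator_mem_commutator (Subgroup.mem_top a) (Subgroup.mem_top b)
    rw [hb, Subgroup.mem_bot] at h1
    have h2 := congrArg (fun t => t * b * a) h1
    simpa [mul_assoc] using h2⟩⟩
  haveI : IsMulCommutative M := by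
    have h1 : ⁅M, M⁆ = ⊥ := by
      by_contra hne
      have hle := hmin ⁅M, M⁆ inferInstance hne
      have heq : ⁅M, M⁆ = M := le_antisymm (Subgroup.commutator_le_self M) hle
      haveI : Nontrivial M := (Subgroup.nontrivial_iff_ne_bot M).2 hM0
      have htop : commutator M = ⊤ := by
        apply Subgroup.map_injective M.subtype_injective
        rw [commutator_def, Subgroup.map_commutator, ← MonoidHom.range_eq_map, Subgroup.range_subtype, heq]
      exact (IsSolvable.commutator_lt_top_of_nontrivial (G := M)).ne htop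
    refine ⟨⟨fun a b => Subtype.ext ?_⟩⟩
    rw [Subgroup.commutator_eq_bot_iff_le_centralizer] at h1
    exact (Subgroup.mem_centralizer_iff.1 (h1 a.2) b b.2).symm
  set C := Subgroup.centralizer (M : Set Q) with hC
  haveI hCn : C.Normal := Subgroup.normal_centralizer
  have hMC : M ≤ C := fun x hx => Subgroup.mem_centralizer_iff.2 fun y hy =>
    congrArg Subtype.val (mul_comm' (⟨y, hy⟩ : M) ⟨x, hx⟩)
  -- `C` is a group of prime power order
  haveI : Group.IsNilpotent C := by
    rw [Subgroup.nilpotent_iff_lowerCentralSeries]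
    refine ⟨2, Subgroup.lowerCentralSeries_succ_eq_bot _ ?_⟩
    rw [Subgroup.top_lowerCentralSeries_one, commutator_def, Subgroup.commutator_le]
    intro a _ b _
    rw [Subgroup.mem_center_iff]
    intro g
    refine Subtype.ext ?_
    have hm : ((⁅a, b⁆ : C) : Q) ∈ M := by
      rw [hM, commutator_def]
      exact Subgroup.commutator_mem_commutator (Subgroup.mem_top (a : Q)) (Subgroup.mem_top (b : Q))
    exact (Subgroup.mem_centralizer_iff.1 g.2 _ hm).symm
  have hC0 : C ≠ ⊥ := fun hb => hM0 (le_bot_iff.1 (hb ▸ hMC))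
  obtain ⟨q, hq, hqd⟩ := Nat.exists_prime_and_dvd (((Subgroup.one_lt_card_iff_ne_bot C).2 hC0).ne')
  obtain ⟨k, hk⟩ : ∃ k, Nat.card C = q ^ k := by
    refine ⟨_, Nat.eq_prime_pow_of_unique_prime_dvd Nat.card_pos.ne' fun {r} hr hrd => ?_⟩
    by_contra hne
    haveI : Fact q.Prime := ⟨hq⟩
    haveI : Fact r.Prime := ⟨hr⟩
    have key : ∀ s : ℕ, Fact s.Prime → s ∣ Nat.card C → ∃ S : Subgroup Q, IsPGroup s S ∧ M ≤ S := by
      intro s hs hsd
      obtain ⟨S⟩ : Nonempty (Sylow s C) := inferInstance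
      haveI : (S : Subgroup C).Normal := inferInstance
      haveI : (S : Subgroup C).Characteristic := Sylow.characteristic_of_normal S inferInstance
      haveI : ((S : Subgroup C).map C.subtype).Normal := ConjAct.normal_of_characteristic_of_normal
      refine ⟨(S : Subgroup C).map C.subtype, S.isPGroup'.map C.subtype, hmin _ inferInstance fun hb => ?_⟩
      exact S.ne_bot_of_dvd_card hsd ((Subgroup.map_eq_bot_iff_of_injective _ C.subtype_injective).1 hb)
    obtain ⟨S₁, hS₁, hMS₁⟩ := key q inferInstance hqd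
    obtain ⟨S₂, hS₂, hMS₂⟩ := key r inferInstance hrd
    have hd := IsPGroup.disjoint_of_ne q r (Ne.symm hne) S₁ S₂ hS₁ hS₂
    exact hM0 (le_bot_iff.1 (hd hMS₁ hMS₂))
  by_cases hCt : C = ⊤
  · haveI : Fact q.Prime := ⟨hq⟩
    rw [hCt, Subgroup.card_top] at hk
    obtain ⟨e, -, he⟩ := (Nat.dvd_prime_pow hq).1 (hk ▸ degree_dvd β)
    have hp := h β hβ
    have : charDegree (β : Q → ℂ) = q := by
      rw [he] at hp ⊢
      rcases Nat.Prime.eq_one_of_pow hp with rfl
      exact pow_one q
    exact ⟨q, q, k, hq, hq, hk ▸ dvd_mul_left _ _, β, this⟩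
  obtain ⟨t₀, ht₀⟩ : ∃ t, t ∉ C := by
    by_contra hc
    push Not at hc
    exact hCt (top_unique fun g _ => hc g)
  obtain ⟨m₀, hm₀⟩ : ∃ m : M, delta M t₀ m ≠ 1 := by
    by_contra hc
    push Not at hc
    exact ht₀ (Subgroup.mem_centralizer_iff.2 fun y hy => ((delta_eq_one_iff M t₀ ⟨y, hy⟩).1 (hc _)).symm)
  obtain ⟨φ, hφ⟩ := exists_hom_ne_one M hm₀
  have hCT : C ≤ stab M φ := fun c hc => (mem_stab M).2 fun a => by
    rw [(delta_eq_one_iff M c a).2 (Subgroup.mem_centralizer_iff.1 hc a a.2).symm, map_one]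
  have hTC : stab M φ ≤ C := by
    intro t ht
    by_contra htC
    set R := (delta M t).range.map M.subtype with hR
    have hRn : R.Normal := by
      refine ⟨?_⟩
      rintro _ ⟨_, ⟨a, rfl⟩, rfl⟩ g
      have hab : ∀ x y : Q, x * y * x⁻¹ * y⁻¹ ∈ M := fun x y => by
        rw [hM, commutator_def]
        exact Subgroup.commutator_mem_commutator (Subgroup.mem_top x) (Subgroup.mem_top y)
      exact ⟨_, (conj_range M hab g t).le ⟨_, ⟨a, rfl⟩, rfl⟩, rfl⟩
    have hR0 : R ≠ ⊥ := fun hb => htC (Subgroup.mem_centralizer_iff.2 fun y hy =>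
      ((delta_eq_one_iff M t ⟨y, hy⟩).1 (by
        have h1 : ((delta M t ⟨y, hy⟩ : M) : Q) ∈ R := ⟨_, ⟨_, rfl⟩, rfl⟩
        rw [hb, Subgroup.mem_bot] at h1
        exact Subtype.ext h1)).symm)
    obtain ⟨x, hx, he⟩ := hmin R hRn hR0 (delta M t₀ m₀).2
    exact hφ (by rw [← (Subtype.ext he : x = delta M t₀ m₀)]; exact (range_le_ker_iff M t φ).2 ht hx)
  obtain ⟨χ, e, -, hdeg, -⟩ := ItoConverse.exists_over M (lin M φ)
  have hCi : C.index ≠ 1 := fun hi => hCt (Subgroup.index_eq_one.1 hi)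
  have hdvd : C.index ∣ charDegree (χ : Q → ℂ) := by
    rw [hdeg, show C = Clifford.inertia (lin M φ : M → ℂ) from le_antisymm hCT hTC]
    exact Dvd.intro_left _ rfl |>.trans (Dvd.intro _ rfl)
  have hχ1 : charDegree (χ : Q → ℂ) ≠ 1 := fun h1 => hCi (Nat.dvd_one.1 (h1 ▸ hdvd))
  have hp := h χ hχ1
  have hCp : C.index = charDegree (χ : Q → ℂ) := ((Nat.dvd_prime hp).1 hdvd).resolve_left hCi
  exact ⟨_, q, k, hp, hq, by rw [← C.card_mul_index, hCp, hk, mul_comm], χ, rfl⟩

theorem charDegrees_card_le {G : Type u} [Group G] [Finite G] (h : PrimeDeg G) :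
    Nat.card (Cfsg.charDegrees G) ≤ 3 := by
  classical
  haveI := Fintype.ofFinite G
  by_cases hc : IsMulCommutative G
  · have hsub : Cfsg.charDegrees G ⊆ {1} := by
      rintro d ⟨χ, rfl⟩
      have := (irr_comm_hom χ.2).1
      rw [apply_one (isCharacter_of_irr χ.2), Nat.cast_eq_one] at this
      exact this
    rw [Nat.card_coe_set_eq]
    exact (Set.ncard_le_ncard hsub (Set.toFinite _)).trans (by simp)
  have hex : ({K : Subgroup G | K.Normal ∧ ¬ commutator G ≤ K}).Nonempty := ⟨⊥, inferInstance, fun hle => hc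
    ⟨⟨fun a b => by
      have h1 : a * b * a⁻¹ * b⁻¹ ∈ commutator G := by
        rw [commutator_def]
        exact Subgroup.commutator_mem_commutator (Subgroup.mem_top a) (Subgroup.mem_top b)
      have h1' := Subgroup.mem_bot.1 (hle h1)
      have h2 := congrArg (fun t => t * b * a) h1'
      simpa [mul_assoc] using h2⟩⟩⟩
  obtain ⟨K, ⟨hKn, hKc⟩, hmax⟩ := (Set.toFinite {K : Subgroup G | K.Normal ∧ ¬ commutator G ≤ K}).exists_maximal hex
  haveI := hKn
  have hQna : ¬ IsMulCommutative (G ⧸ K) := fun hq => hKc (Subgroup.Normal.quotient_commutative_iff_commutator_le.1 hq)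
  have hQdeg : PrimeDeg (G ⧸ K) := fun ψ hψ => by
    have h' := h ⟨fun x => (ψ : G ⧸ K → ℂ) (QuotientGroup.mk' K x),
      Clifford.isIrrCharacter_comp ψ.2 _ (QuotientGroup.mk'_surjective K)⟩
    have e : charDegree (fun x => (ψ : G ⧸ K → ℂ) (QuotientGroup.mk' K x)) = charDegree (ψ : G ⧸ K → ℂ) := by
      simp [charDegree]
    rw [e] at h'
    exact h' hψ
  have hQmin : ∀ M : Subgroup (G ⧸ K), M.Normal → M ≠ ⊥ → commutator (G ⧸ K) ≤ M := by
    intro M hMn hM0
    by_contra hle
    set L := M.comap (QuotientGroup.mk' K) with hL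
    have hKL : K ≤ L := fun x hx => by
      rw [hL, Subgroup.mem_comap, QuotientGroup.mk'_apply, (QuotientGroup.eq_one_iff x).2 hx]
      exact M.one_mem
    have hLn : L.Normal := hMn.comap _
    have hLc : ¬ commutator G ≤ L := fun h1 => hle (by
      rw [commutator_def, ← Subgroup.map_top_of_surjective _ (QuotientGroup.mk'_surjective K), ← Subgroup.map_commutator,
        Subgroup.map_le_iff_le_comap, ← commutator_def]
      exact h1)
    have := hmax ⟨hLn, hLc⟩ hKL
    apply hM0
    rw [← Subgroup.map_comap_eq_self_of_surjective (QuotientGroup.mk'_surjective K) M, Subgroup.map_eq_bot_iff,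
      QuotientGroup.ker_mk']
    exact this
  obtain ⟨p, q, k, hp, hq, hcard, β, hβ⟩ := just_nonabelian hQna hQdeg hQmin
  have hsub : Cfsg.charDegrees G ⊆ {1, p, q} := by
    rintro d ⟨χ, rfl⟩
    by_contra hd
    simp only [Set.mem_insert_iff, Set.mem_singleton_iff, not_or] at hd
    obtain ⟨hd1, hdp, hdq⟩ := hd
    have hr := h χ hd1
    have hcop : (charDegree (χ : G → ℂ)).Coprime K.index := by
      rw [Subgroup.index_eq_card]
      refine (Nat.Coprime.mul_right ((Nat.coprime_primes hr hp).2 hdp) ?_).coprime_dvd_right hcard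
      exact ((Nat.coprime_primes hr hq).2 hdq).pow_right k
    haveI := Fintype.ofFinite K
    obtain ⟨θ, hθ⟩ := exists_restrict_constituent K χ
    obtain ⟨hinv, hres⟩ := CoprimeDegree.restrict_of_coprime (χ := χ) hcop (θ := θ) (by
      rw [classInner_comm, Ne, map_eq_zero]; exact hθ)
    have hb : Set.BijOn (fun b : G → ℂ => b * (χ : G → ℂ))
        {b : G → ℂ | Cfsg.IsIrrCharacter G b ∧ Cfsg.classInner (Cfsg.indFun K (fun _ : K => (1 : ℂ))) b ≠ 0}
        {ψ : G → ℂ | Cfsg.IsIrrCharacter G ψ ∧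
          Cfsg.classInner (Cfsg.indFun K ((fun _ : K => (1 : ℂ)) * (θ : K → ℂ))) ψ ≠ 0} :=
      Clifford.gallagher_bijOn (N := K) (φ := fun _ : K => (1 : ℂ)) (θ := (θ : K → ℂ)) isIrrCharacter_one
        (fun g => funext fun n => rfl) (by
          rw [show ((fun _ : K => (1 : ℂ)) * (θ : K → ℂ)) = (θ : K → ℂ) from one_mul _]; exact θ.2)
        (isCharacter_of_irr χ.2) hres
    have hb' : Cfsg.IsIrrCharacter G (fun x => (β : G ⧸ K → ℂ) (QuotientGroup.mk' K x)) :=
      Clifford.isIrrCharacter_comp β.2 _ (QuotientGroup.mk'_surjective K)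
    have h2 := hb.mapsTo (⟨hb', (Clifford.mem_over_one_iff hb').2 fun n hn => by
      simp only [QuotientGroup.mk'_apply, (QuotientGroup.eq_one_iff n).2 hn, QuotientGroup.mk_one]⟩ :
      (fun x => (β : G ⧸ K → ℂ) (QuotientGroup.mk' K x)) ∈ {b : G → ℂ | Cfsg.IsIrrCharacter G b ∧
        Cfsg.classInner (Cfsg.indFun K (fun _ : K => (1 : ℂ))) b ≠ 0})
    have hdeg : charDegree ((fun x => (β : G ⧸ K → ℂ) (QuotientGroup.mk' K x)) * (χ : G → ℂ)) =
        p * charDegree (χ : G → ℂ) := by
      have e1 := apply_one (isCharacter_of_irr h2.1)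
      simp only [Pi.mul_apply, map_one, apply_one (isCharacter_of_irr β.2), apply_one (isCharacter_of_irr χ.2), hβ,
        ← Nat.cast_mul, Nat.cast_inj] at e1
      exact e1.symm
    have h3 := h ⟨_, h2.1⟩
    rw [hdeg] at h3
    have h4 := h3 (fun e => hp.one_lt.ne' (mul_eq_one.1 e).1)
    exact Nat.not_prime_mul hp.one_lt.ne' hr.one_lt.ne' h4
  rw [Nat.card_coe_set_eq]
  refine (Set.ncard_le_ncard hsub (Set.toFinite _)).trans ?_
  exact (Set.ncard_insert_le _ _).trans (Nat.succ_le_succ (by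
    exact (Set.ncard_insert_le _ _).trans (by simp)))

end CfsgLib.PrimeDegrees
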